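import Cfsg.Agent.S0199
import Cfsg.Agent.Lib.Coprime.Action
import Cfsg.Agent.Lib.Core.Basic
import Cfsg.Agent.Lib.Fusion.GroupSystem

/-!
# Groups whose subgroups have no coprime class sizes

If no subgroup of `G` has two conjugacy classes of coprime sizes `> 1`, then no `2`-element of `G` acts
nontrivially on a subgroup of odd prime order. By Baer-Suzuki every element `x` with `x ^ 2 ∈ O_2(G)` lies in
`O_2(G)`, so `G / O_2(G)` has odd order, and `G` is soluble by the odd order theorem.
-/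

set_option autoImplicit false

namespace Cfsg.Agent.Lib.ClassCop.Main

open Subgroup Cfsg Cfsg.Agent.Lib.Core.Basic

universe u

variable {G : Type u} [Group G] [Finite G]

/-- The hypothesis: no subgroup has two classes of coprime sizes `> 1`. -/
def NoCop (G : Type u) [Group G] : Prop :=
  ∀ (H : Subgroup G) (x y : H), 1 < (Subgroup.centralizer ({x} : Set H)).index →
    1 < (Subgroup.centralizer ({y} : Set H)).index →
    ¬ ((Subgroup.centralizer ({x} : Set H)).index).Coprime (Subgroup.centralizer ({y} : Set H)).index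

theorem mem_normalizer_of_conj {w x : G} (hn : x * w * x⁻¹ ∈ zpowers w) :
    x ∈ normalizer ((zpowers w : Subgroup G) : Set G) := by
  have hord : orderOf (x * w * x⁻¹) = orderOf w := by
    have := (MulAut.conj x).orderOf_eq w
    simpa [MulAut.conj_apply] using this
  have hzz : zpowers (x * w * x⁻¹) = zpowers w := by
    apply Subgroup.eq_of_le_of_card_ge
    · rw [Subgroup.zpowers_le]
      exact hn
    · rw [Nat.card_zpowers, Nat.card_zpowers, hord]
  rw [Subgroup.mem_normalizer_iff]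
  intro g
  constructor
  · rintro ⟨k, rfl⟩
    show x * w ^ k * x⁻¹ ∈ zpowers w
    have : x * w ^ k * x⁻¹ = (x * w * x⁻¹) ^ k := by
      rw [conj_zpow]
    rw [this]
    exact Subgroup.zpow_mem _ hn k
  · intro hg
    rw [← hzz] at hg
    obtain ⟨k, hk⟩ := Subgroup.mem_zpowers_iff.mp hg
    have h1 : x * w ^ k * x⁻¹ = (x * w * x⁻¹) ^ k := by
      rw [conj_zpow]
    rw [← h1] at hk
    have h2 : w ^ k = g := by
      have := hk
      have h3 : x * w ^ k * x⁻¹ = x * g * x⁻¹ := this
      exact mul_left_cancel (mul_right_cancel h3)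
    rw [← h2]
    exact Subgroup.zpow_mem _ (mem_zpowers w) k

/-- A `2`-element normalizing a subgroup of odd prime order centralizes it. -/
theorem conj_eq (h : NoCop G) {w x : G} {q : ℕ} (hq : q.Prime) (hq2 : q ≠ 2) (hw : orderOf w = q) {a : ℕ}
    (hx : x ^ 2 ^ a = 1) (hn : x * w * x⁻¹ ∈ zpowers w) : x * w * x⁻¹ = w := by
  classical
  by_contra hne
  set W : Subgroup G := zpowers w with hW
  set X : Subgroup G := zpowers x with hX
  have hXn : X ≤ normalizer (W : Set G) := by
    rw [hX, Subgroup.zpowers_le]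
    exact mem_normalizer_of_conj hn
  have hWc : Nat.card W = q := by rw [hW, Nat.card_zpowers, hw]
  have hXo : ∃ b, Nat.card X = 2 ^ b := by
    rw [hX, Nat.card_zpowers]
    have h1 : orderOf x ∣ 2 ^ a := orderOf_dvd_of_pow_eq_one hx
    obtain ⟨b, -, hb⟩ := (Nat.dvd_prime_pow Nat.prime_two).1 h1
    exact ⟨b, hb⟩
  obtain ⟨b, hb⟩ := hXo
  have hcop : (Nat.card W).Coprime (Nat.card X) := by
    rw [hWc, hb]
    exact Nat.Coprime.pow_right _ ((Nat.coprime_primes hq Nat.prime_two).2 hq2)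
  have hinf : W ⊓ X = ⊥ := Subgroup.inf_eq_bot_of_coprime hcop
  have hcard : Nat.card W * Nat.card X = Nat.card (W ⊔ X : Subgroup G) :=
    Cfsg.Agent.Lib.Coprime.Action.card_sup_of_le_normalizer hXn hinf
  set H : Subgroup G := W ⊔ X with hH
  have hWH : W ≤ H := le_sup_left
  have hXH : X ≤ H := le_sup_right
  let w₁ : H := ⟨w, hWH (mem_zpowers w)⟩
  let x₁ : H := ⟨x, hXH (mem_zpowers x)⟩
  have hcs : ¬ Commute x w := by
    intro hc
    apply hne
    rw [hc.eq, mul_inv_cancel_right]
  have hcard' : Nat.card H = q * 2 ^ b := by rw [← hcard, hWc, hb]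
  -- the two indices
  have hi1 : (Subgroup.centralizer ({w₁} : Set H)).index ∣ 2 ^ b := by
    have h1 : W.subgroupOf H ≤ Subgroup.centralizer ({w₁} : Set H) := by
      intro y hy
      rw [Subgroup.mem_subgroupOf] at hy
      rw [Subgroup.mem_centralizer_singleton_iff]
      apply Subtype.ext
      obtain ⟨k, hk⟩ := Subgroup.mem_zpowers_iff.mp hy
      show (y : G) * w = w * (y : G)
      rw [← hk]
      exact ((Commute.refl w).zpow_left k).eq
    have h2 := Subgroup.index_dvd_of_le h1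
    have h3 : (W.subgroupOf H).index * Nat.card W = Nat.card H := by
      have h4 := Subgroup.card_mul_index (W.subgroupOf H)
      rw [Cfsg.Agent.Lib.Fusion.GroupSystem.card_subgroupOf_of_le hWH] at h4
      rw [mul_comm]
      exact h4
    have h5 : (W.subgroupOf H).index = 2 ^ b := by
      rw [hcard', hWc, mul_comm] at h3
      exact Nat.eq_of_mul_eq_mul_left hq.pos h3
    rwa [h5] at h2
  have hi2 : (Subgroup.centralizer ({x₁} : Set H)).index ∣ q := by
    have h1 : X.subgroupOf H ≤ Subgroup.centralizer ({x₁} : Set H) := by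
      intro y hy
      rw [Subgroup.mem_subgroupOf] at hy
      rw [Subgroup.mem_centralizer_singleton_iff]
      apply Subtype.ext
      obtain ⟨k, hk⟩ := Subgroup.mem_zpowers_iff.mp hy
      show (y : G) * x = x * (y : G)
      rw [← hk]
      exact ((Commute.refl x).zpow_left k).eq
    have h2 := Subgroup.index_dvd_of_le h1
    have h3 : (X.subgroupOf H).index * Nat.card X = Nat.card H := by
      have h4 := Subgroup.card_mul_index (X.subgroupOf H)
      rw [Cfsg.Agent.Lib.Fusion.GroupSystem.card_subgroupOf_of_le hXH] at h4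
      rw [mul_comm]
      exact h4
    have h5 : (X.subgroupOf H).index = q := by
      rw [hcard', hb] at h3
      exact Nat.eq_of_mul_eq_mul_right (by positivity) h3
    rwa [h5] at h2
  have hg1 : 1 < (Subgroup.centralizer ({w₁} : Set H)).index := by
    rw [Nat.one_lt_iff_ne_zero_and_ne_one]
    refine ⟨Subgroup.index_ne_zero_of_finite, fun h1 => hcs ?_⟩
    have h2 := Subgroup.index_eq_one.mp h1
    have h3 : x₁ ∈ Subgroup.centralizer ({w₁} : Set H) := h2 ▸ Subgroup.mem_top _
    rw [Subgroup.mem_centralizer_singleton_iff] at h3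
    exact congrArg Subtype.val h3
  have hg2 : 1 < (Subgroup.centralizer ({x₁} : Set H)).index := by
    rw [Nat.one_lt_iff_ne_zero_and_ne_one]
    refine ⟨Subgroup.index_ne_zero_of_finite, fun h1 => hcs ?_⟩
    have h2 := Subgroup.index_eq_one.mp h1
    have h3 : w₁ ∈ Subgroup.centralizer ({x₁} : Set H) := h2 ▸ Subgroup.mem_top _
    rw [Subgroup.mem_centralizer_singleton_iff] at h3
    exact (congrArg Subtype.val h3).symm
  apply h H w₁ x₁ hg1 hg2
  refine Nat.Coprime.coprime_dvd_left hi1 (Nat.Coprime.coprime_dvd_right hi2 ?_)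
  exact Nat.Coprime.pow_left _ ((Nat.coprime_primes Nat.prime_two hq).2 (Ne.symm hq2))

/-- Elements with square in `O_2(G)` have a product of `2`-power order. -/
theorem two_elt_mul (h : NoCop G) {x y : G} (hx : x ^ 2 ∈ pCore 2 G) (hy : y ^ 2 ∈ pCore 2 G) :
    ∃ a : ℕ, (x * y) ^ 2 ^ a = 1 := by
  classical
  haveI : Fact (Nat.Prime 2) := ⟨Nat.prime_two⟩
  set T : Subgroup G := pCore 2 G with hTdef
  have hT : IsPGroup 2 T := pCore_isPGroup
  let π : G →* G ⧸ T := QuotientGroup.mk' T
  have hπ : ∀ z, π z = 1 ↔ z ∈ T := fun z => QuotientGroup.eq_one_iff z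
  have hx1 : π x * π x = 1 := by
    rw [← map_mul, hπ, ← sq]
    exact hx
  have hy1 : π y * π y = 1 := by
    rw [← map_mul, hπ, ← sq]
    exact hy
  set c : G := x * y with hc
  by_contra hnot
  push Not at hnot
  have ho : orderOf c ≠ 0 := (orderOf_pos c).ne'
  obtain ⟨q, hq, hqd, hq2⟩ : ∃ q : ℕ, q.Prime ∧ q ∣ orderOf c ∧ q ≠ 2 := by
    by_contra hcon
    push Not at hcon
    have h1 : orderOf c = 2 ^ (orderOf c).primeFactorsList.length :=
      Nat.eq_prime_pow_of_unique_prime_dvd ho (fun {d} hd hdd => hcon d hd hdd)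
    apply hnot (orderOf c).primeFactorsList.length
    rw [← h1]
    exact pow_orderOf_eq_one c
  set w : G := c ^ (orderOf c / q) with hw
  have hwo : orderOf w = q := orderOf_pow_orderOf_div ho hqd
  -- `x` inverts `c` modulo `T`
  have hconjc : π (x * c * x⁻¹) = (π c)⁻¹ := by
    have h1 : (π x)⁻¹ = π x := (eq_inv_of_mul_eq_one_left hx1).symm
    have h2 : (π y)⁻¹ = π y := (eq_inv_of_mul_eq_one_left hy1).symm
    rw [hc, map_mul, map_mul, map_mul, map_inv, mul_inv_rev, h1, h2, ← mul_assoc, hx1, one_mul]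
  have hconjw : π (x * w * x⁻¹) = (π w)⁻¹ := by
    have h1 : x * w * x⁻¹ = (x * c * x⁻¹) ^ (orderOf c / q) := by
      rw [hw, conj_pow]
    rw [h1, map_pow, hconjc, hw, map_pow, inv_pow]
  set W : Subgroup G := zpowers w with hWdef
  have hWc : Nat.card W = q := by rw [hWdef, Nat.card_zpowers, hwo]
  obtain ⟨n, hn⟩ := IsPGroup.iff_card.1 hT
  have hcop : (Nat.card T).Coprime (Nat.card W) := by
    rw [hn, hWc]
    exact Nat.Coprime.pow_left _ ((Nat.coprime_primes Nat.prime_two hq).2 (Ne.symm hq2))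
  have hinf : T ⊓ W = ⊥ := Subgroup.inf_eq_bot_of_coprime hcop
  have hnorm : W ≤ normalizer (T : Set G) := by
    intro g _
    rw [Subgroup.mem_normalizer_iff]
    intro n
    constructor
    · intro hn
      exact (pCore_normal 2 G).conj_mem n hn g
    · intro hn
      have := (pCore_normal 2 G).conj_mem _ hn g⁻¹
      simpa [mul_assoc] using this
  have hcard : Nat.card T * Nat.card W = Nat.card (T ⊔ W : Subgroup G) :=
    Cfsg.Agent.Lib.Coprime.Action.card_sup_of_le_normalizer hnorm hinf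
  set Y : Subgroup G := T ⊔ W with hY
  have hWY : W ≤ Y := le_sup_right
  haveI : Fact q.Prime := ⟨hq⟩
  have hqn : ¬ q ∣ 2 ^ n := by
    intro hd
    exact hq2 ((Nat.prime_dvd_prime_iff_eq hq Nat.prime_two).1 (hq.dvd_of_dvd_pow hd))
  have hfac : (Nat.card Y).factorization q = 1 := by
    rw [← hcard, hn, hWc, Nat.factorization_mul (by positivity) hq.ne_zero,
      Finsupp.add_apply, Nat.factorization_eq_zero_of_not_dvd hqn, hq.factorization_self]
  have hsyl : Cfsg.Agent.Lib.Fusion.GroupSystem.IsSylowIn q W Y :=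
    Cfsg.Agent.Lib.Fusion.GroupSystem.isSylowIn_of_card hWY (by rw [hfac, pow_one, hWc])
  set v : G := x * w * x⁻¹ with hv
  have hvY : v ∈ Y := by
    have h1 : v * w ∈ T := by
      rw [← hπ, map_mul, hconjw, inv_mul_cancel]
    have h2 : v = (v * w) * w⁻¹ := by group
    rw [h2]
    exact Y.mul_mem (Subgroup.mem_sup_left h1) (hWY (Subgroup.inv_mem _ (mem_zpowers w)))
  have hvo : orderOf v = q := by
    have := (MulAut.conj x).orderOf_eq w
    rw [← hwo, ← this, MulAut.conj_apply]
  have hCp : IsPGroup q (zpowers v) := by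
    apply IsPGroup.of_card (n := 1)
    rw [Nat.card_zpowers, hvo, pow_one]
  obtain ⟨b, hb, hbv⟩ := Cfsg.Agent.Lib.Fusion.GroupSystem.IsSylowIn.exists_conj hsyl
    ((Subgroup.zpowers_le).2 hvY) hCp
  have hbv' := hbv v (mem_zpowers v)
  have hbm : b ∈ (W ⊔ T : Subgroup G) := by rwa [sup_comm]
  rw [← SetLike.mem_coe, Subgroup.mul_normal] at hbm
  obtain ⟨u, hu, t, ht, rfl⟩ := Set.mem_mul.mp hbm
  have hu' : u ∈ W := hu
  have ht' : t ∈ T := ht
  have h3 : (t * x) * w * (t * x)⁻¹ ∈ zpowers w := by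
    have h4 : (t * x) * w * (t * x)⁻¹ = u⁻¹ * ((u * t) * v * (u * t)⁻¹) * u := by
      rw [hv]; group
    rw [h4]
    exact W.mul_mem (W.mul_mem (W.inv_mem hu') hbv') hu'
  -- `t * x` is a `2`-element
  have h5 : π (t * x) = π x := by
    rw [map_mul, (hπ t).2 ht', one_mul]
  obtain ⟨m, hm⟩ : ∃ m : ℕ, (t * x) ^ 2 ^ m = 1 := by
    have h6 : (t * x) ^ 2 ∈ T := by
      rw [← hπ, map_pow, h5, sq, hx1]
    obtain ⟨m, hm⟩ := hT ⟨_, h6⟩
    refine ⟨m + 1, ?_⟩
    have h7 := congrArg Subtype.val hm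
    simp only [SubgroupClass.coe_pow, OneMemClass.coe_one] at h7
    rw [pow_succ', pow_mul]
    exact h7
  have h8 := conj_eq h hq hq2 hwo hm h3
  have h9 : π w = (π w)⁻¹ := by
    have h10 := congrArg π h8
    rw [map_mul, map_mul, map_inv, h5] at h10
    have h14 : π v = π x * π w * (π x)⁻¹ := by
      rw [hv, map_mul, map_mul, map_inv]
    calc π w = π x * π w * (π x)⁻¹ := h10.symm
      _ = π v := h14.symm
      _ = (π w)⁻¹ := hconjw
  have h11 : w ^ 2 ∈ T := by
    rw [← hπ, map_pow, sq]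
    nth_rewrite 1 [h9]
    simp
  obtain ⟨k, hk⟩ := hT ⟨_, h11⟩
  have h12 := congrArg Subtype.val hk
  simp only [SubgroupClass.coe_pow, OneMemClass.coe_one] at h12
  rw [← pow_mul, ← pow_succ'] at h12
  have h13 := orderOf_dvd_of_pow_eq_one h12
  rw [hwo] at h13
  exact hq2 ((Nat.prime_dvd_prime_iff_eq hq Nat.prime_two).1 (hq.dvd_of_dvd_pow h13))

/-- Elements with square in `O_2(G)` lie in `O_2(G)`. -/
theorem mem_core (h : NoCop G) {x : G} (hx : x ^ 2 ∈ pCore 2 G) : x ∈ pCore 2 G := by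
  classical
  haveI : Fact (Nat.Prime 2) := ⟨Nat.prime_two⟩
  set T : Subgroup G := pCore 2 G with hTdef
  have hT : IsPGroup 2 T := pCore_isPGroup
  let π : G →* G ⧸ T := QuotientGroup.mk' T
  have hπ : ∀ z, π z = 1 ↔ z ∈ T := fun z => QuotientGroup.eq_one_iff z
  have hker : IsPGroup 2 π.ker := by
    rw [QuotientGroup.ker_mk']
    exact hT
  have hx1 : π x * π x = 1 := by
    rw [← map_mul, hπ, ← sq]
    exact hx
  have hz2 : ∀ z : G ⧸ T, z * z = 1 → IsPGroup 2 (zpowers z) := by
    intro z hz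
    intro y
    obtain ⟨k, hk⟩ := Subgroup.mem_zpowers_iff.mp y.2
    refine ⟨1, ?_⟩
    apply Subtype.ext
    show (y : G ⧸ T) ^ 2 ^ 1 = 1
    rw [← hk, pow_one, ← zpow_natCast, ← zpow_mul, mul_comm, zpow_mul]
    simp [sq, hz]
  set X : Subgroup G := (zpowers (π x)).comap π with hX
  have hXp : IsPGroup 2 X := (hz2 _ hx1).comap_of_ker_isPGroup π hker
  have hBS : ∀ g : G, IsPGroup 2 ↥(X ⊔ X.map (MulAut.conj g).toMonoidHom) := by
    intro g
    set y : G := g * x * g⁻¹ with hy
    have hy2 : y ^ 2 ∈ T := by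
      have h1 : y ^ 2 = g * x ^ 2 * g⁻¹ := by rw [hy, conj_pow]
      rw [h1]
      exact (pCore_normal 2 G).conj_mem _ hx g
    obtain ⟨a, ha⟩ := two_elt_mul h hx hy2
    set c : G := x * y with hc
    have hcz : IsPGroup 2 (zpowers (π c)) := by
      intro z
      obtain ⟨k, hk⟩ := Subgroup.mem_zpowers_iff.mp z.2
      refine ⟨a, ?_⟩
      apply Subtype.ext
      show (z : G ⧸ T) ^ 2 ^ a = 1
      rw [← hk, ← zpow_natCast, ← zpow_mul, mul_comm, zpow_mul, zpow_natCast, ← map_pow, ha, map_one,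
        one_zpow]
    have hy1 : π y * π y = 1 := by
      rw [← map_mul, hπ, ← sq]
      exact hy2
    have hconj : π x * π c * (π x)⁻¹ ∈ zpowers (π c) := by
      have h1 : (π x)⁻¹ = π x := (eq_inv_of_mul_eq_one_left hx1).symm
      have h2 : (π y)⁻¹ = π y := (eq_inv_of_mul_eq_one_left hy1).symm
      have h3 : π x * π c * (π x)⁻¹ = (π c)⁻¹ := by
        rw [hc, map_mul, mul_inv_rev, h1, h2, ← mul_assoc, hx1, one_mul]
      rw [h3]
      exact Subgroup.inv_mem _ (mem_zpowers _)
    have hZn : zpowers (π x) ≤ normalizer ((zpowers (π c) : Subgroup (G ⧸ T)) : Set (G ⧸ T)) := by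
      rw [Subgroup.zpowers_le]
      exact mem_normalizer_of_conj hconj
    have hZp : IsPGroup 2 (zpowers (π x) ⊔ zpowers (π c) : Subgroup (G ⧸ T)) :=
      IsPGroup.to_sup_of_normal_right' (hz2 _ hx1) hcz hZn
    have hYp := hZp.comap_of_ker_isPGroup π hker
    refine hYp.to_le (sup_le ?_ ?_)
    · intro u hu
      exact (le_sup_left : zpowers (π x) ≤ _) hu
    · rintro _ ⟨u, hu, rfl⟩
      obtain ⟨k, hk⟩ := Subgroup.mem_zpowers_iff.mp (show π u ∈ zpowers (π x) from hu)
      show π (g * u * g⁻¹) ∈ (zpowers (π x) ⊔ zpowers (π c) : Subgroup (G ⧸ T))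
      have h1 : π (g * u * g⁻¹) = (π y) ^ k := by
        have h0 : π y = π g * π x * (π g)⁻¹ := by
          rw [hy, map_mul, map_mul, map_inv]
        rw [h0, conj_zpow, hk, map_mul, map_mul, map_inv]
      have h2 : π y = (π x)⁻¹ * π c := by
        rw [hc, show π (x * y) = π x * π y from map_mul π x y, inv_mul_cancel_left]
      rw [h1, h2]
      exact Subgroup.zpow_mem _ (Subgroup.mul_mem _
        (Subgroup.inv_mem _ ((le_sup_left : zpowers (π x) ≤ _) (mem_zpowers _)))
        ((le_sup_right : zpowers (π c) ≤ _) (mem_zpowers _))) k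
  obtain ⟨N, hN, hNp, hXN⟩ := Cfsg.Agent.S0199.result X hXp hBS
  have hNT : N ≤ T := le_pCore hN hNp
  apply hNT
  apply hXN
  show π x ∈ zpowers (π x)
  exact mem_zpowers _

/-- The main theorem, given the odd order theorem. -/
theorem main (ft : ∀ (H : Type u) [Group H] [Finite H], Odd (Nat.card H) → Group.IsSolvable H)
    (h : NoCop G) : Group.IsSolvable G := by
  classical
  haveI : Fact (Nat.Prime 2) := ⟨Nat.prime_two⟩
  set T : Subgroup G := pCore 2 G with hTdef
  have hT : IsPGroup 2 T := pCore_isPGroup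
  have hodd : Odd (Nat.card (G ⧸ T)) := by
    rw [← Nat.not_even_iff_odd, even_iff_two_dvd]
    intro h2
    obtain ⟨z, hz⟩ := exists_prime_orderOf_dvd_card' 2 h2
    obtain ⟨x, rfl⟩ := QuotientGroup.mk_surjective z
    have hx : x ^ 2 ∈ T := by
      have h3 := pow_orderOf_eq_one (x : G ⧸ T)
      rw [hz] at h3
      rw [← QuotientGroup.eq_one_iff, QuotientGroup.mk_pow]
      exact h3
    have hxT := mem_core h hx
    have h1 : ((x : G ⧸ T)) = 1 := (QuotientGroup.eq_one_iff x).mpr hxT
    rw [h1, orderOf_one] at hz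
    omega
  haveI : Group.IsSolvable (G ⧸ T) := ft _ hodd
  haveI : Group.IsNilpotent T := hT.isNilpotent
  haveI : Group.IsSolvable T := inferInstance
  exact solvable_of_ker_le_range T.subtype (QuotientGroup.mk' T) (by
    rw [QuotientGroup.ker_mk', Subgroup.range_subtype])

end Cfsg.Agent.Lib.ClassCop.Main
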